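import Cfsg.Agent.BpExc.NChev
import Cfsg.Agent.H795.SetCent
import Cfsg.Agent.Nodes.BN

/-!
# S3509, exceptional groups: the fixed points of a frame automorphism in the centraliser of a torus element (helper28)

`H : Tow cs h p T n X` with coordinates `C`, `t ∈ TL T`, `α` a frame automorphism over `θ` (`Fr`), `α t = t`, and `θ`
preserves the positive roots of `Sx t`.

* `Up`, `Un` : the groups generated by the root groups of the positive / negative roots of `Sx t`;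
* `form_fix` : an element fixed by `α` and commuting with `t` is `u k v`, `u, v ∈ Up`, `k` over `w`, `k v k⁻¹ ∈ Un`, all fixed by
  `α` and commuting with `t`.
-/

set_option autoImplicit false
set_option linter.unusedSectionVars false

namespace Cfsg.Agent.H28.RG

open CoxeterSystem Cfsg.Agent.ChevalleyStructure.CoxeterGeom Cfsg.Agent.Tits.Roots Cfsg.Agent.Tits.Core
  Cfsg.Agent.Tits.RootComb Cfsg.Agent.Tits.Exchange Cfsg.Agent.Nodes.Reps Cfsg.Agent.Nodes.BNOf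
  Cfsg.Agent.Nodes.StabComb Cfsg.Agent.Nodes.Bruhat Cfsg.Agent.Nodes.OppDec Cfsg.Agent.Nodes.LeviDec
  Cfsg.Agent.Nodes.NormalForm Cfsg.Agent.Nodes.SubComb Cfsg.Agent.KFacts.RgdField
  Cfsg.Agent.BpExc.TorCent Cfsg.Agent.BpExc.Tow Cfsg.Agent.BpExc.Fr
open scoped commutatorElement

variable {I W Y : Type*} [Fintype I] [DecidableEq I] [Group W] [Finite W] [Group Y] {M : CoxeterMatrix I}
  {cs : CoxeterSystem M W} {A : I → I → ℤ} {h : IsCartan M A} {p : ℕ}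
  {J : Type*} [Preorder J] {T : J → Subgroup Y} {n : I → Y} {X : J → (I → ℤ) → Subgroup Y}

/-! ### the union -/

section Lim

variable (H : Tow cs h p T n X)

include H

/-- `N` conjugates the groups generated by root groups -/
theorem conj_SupL {w : W} {g : Y} (hg : Rp cs H.nsys w g) {S S' : Set (I → ℤ)} (hS : ∀ x ∈ S, IsRoot cs h x)
    (hSS : ∀ x ∈ S, rep cs h w x ∈ S') {a : Y} (ha : a ∈ RGD.Sup (XL X) S) : g * a * g⁻¹ ∈ RGD.Sup (XL X) S' := by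
  have h1 : RGD.Sup (XL X) S ≤ (RGD.Sup (XL X) S').comap (MulAut.conj g).toMonoidHom := by
    refine RGD.Sup_le fun x hx => ?_
    intro y hy
    have h2 : g * y * g⁻¹ ∈ cj g (XL X x) := conj_mem_cj.2 hy
    rw [H.conj_rp hg (hS x hx)] at h2
    exact RGD.le_Sup (hSS x hx) h2
  exact h1 ha

theorem eq_one_of_pos_neg {u : Y} (h1 : u ∈ RGD.Sup (XL X) (RGD.Pos cs h)) (h2 : u ∈ RGD.Sup (XL X) (Neg cs h)) :
    u = 1 := by
  obtain ⟨j1, h1⟩ := H.mem_Sup.1 h1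
  obtain ⟨j2, h2⟩ := H.mem_Sup.1 h2
  obtain ⟨j, a1, a2⟩ := H.dir j1 j2
  exact eq_one_of_mem_UN_of_mem_B (H.rgd j) (H.mono_Sup _ a2 h2) (RGD.U_le_B (H.mono_Sup _ a1 h1))

/-- the elements of `U` moved into `U⁻` by `k` -/
theorem mem_NW {w : W} {k v : Y} (hk : Rp cs H.nsys w k) (hv : v ∈ RGD.Sup (XL X) (RGD.Pos cs h))
    (hkv : k * v * k⁻¹ ∈ RGD.Sup (XL X) (Neg cs h)) : v ∈ RGD.Sup (XL X) (NW cs h w) := by
  obtain ⟨j, hj⟩ := H.mem_Sup.1 hv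
  obtain ⟨b, hb, c, hc, rfl⟩ := exists_PW_NW (H.rgd j) w hj
  have hb' := Sup_le_SupL (X := X) j _ hb
  have hc' := Sup_le_SupL (X := X) j _ hc
  have h1 : k * b * k⁻¹ ∈ RGD.Sup (XL X) (RGD.Pos cs h) :=
    conj_SupL H hk (S' := RGD.Pos cs h) (fun x hx => hx.1) (fun x hx => ⟨hx.1.act w, hx.2.2⟩) hb'
  have h2 : k * c * k⁻¹ ∈ RGD.Sup (XL X) (Neg cs h) :=
    conj_SupL H hk (S' := Neg cs h) (fun x hx => hx.1) (fun x hx => ⟨hx.1.act w, hx.2.2⟩) hc'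
  have h3 : k * b * k⁻¹ ∈ RGD.Sup (XL X) (Neg cs h) := by
    have e : k * b * k⁻¹ = (k * (b * c) * k⁻¹) * (k * c * k⁻¹)⁻¹ := by group
    rw [e]
    exact mul_mem hkv (inv_mem h2)
  have h4 := eq_one_of_pos_neg H h1 h3
  have h5 : b = 1 := by
    have e : b = k⁻¹ * (k * b * k⁻¹) * k := by group
    rw [e, h4]
    group
  rw [h5, one_mul]
  exact hc'

/-- **Uniqueness**, with `k v k⁻¹ ∈ U⁻` -/
theorem form_unique {w w' : W} {u u' k k' v v' : Y}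
    (hu : u ∈ RGD.Sup (XL X) (RGD.Pos cs h)) (hu' : u' ∈ RGD.Sup (XL X) (RGD.Pos cs h))
    (hk : Rp cs H.nsys w k) (hk' : Rp cs H.nsys w' k') (hv : v ∈ RGD.Sup (XL X) (RGD.Pos cs h))
    (hkv : k * v * k⁻¹ ∈ RGD.Sup (XL X) (Neg cs h))
    (hv' : v' ∈ RGD.Sup (XL X) (RGD.Pos cs h)) (hkv' : k' * v' * k'⁻¹ ∈ RGD.Sup (XL X) (Neg cs h))
    (e : u * k * v = u' * k' * v') : w = w' ∧ u = u' ∧ k = k' ∧ v = v' :=
  H.normal_form_unique hu hu' hk hk' (mem_NW H hk hv hkv) (mem_NW H hk' hv' hkv') e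

end Lim

/-! ### the centraliser of a torus element -/

section Cent

variable {F : Type*} [Field F] {xx : (I → ℤ) → F → Y} {χ : (I → ℤ) → Y → F}

/-- positive roots of `Sx t` -/
def SP (cs : CoxeterSystem M W) (h : IsCartan M A) (χ : (I → ℤ) → Y → F) (t : Y) : Set (I → ℤ) :=
  {a | a ∈ Sx cs h χ t ∧ 0 ≤ a}

/-- negative roots of `Sx t` -/
def SN (cs : CoxeterSystem M W) (h : IsCartan M A) (χ : (I → ℤ) → Y → F) (t : Y) : Set (I → ℤ) :=
  {a | a ∈ Sx cs h χ t ∧ a ≤ 0}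

/-- the group generated by the positive root groups centralised by `t` -/
def Up (cs : CoxeterSystem M W) (h : IsCartan M A) (X : J → (I → ℤ) → Subgroup Y) (χ : (I → ℤ) → Y → F) (t : Y) :
    Subgroup Y := RGD.Sup (XL X) (SP cs h χ t)

/-- the group generated by the negative root groups centralised by `t` -/
def Un (cs : CoxeterSystem M W) (h : IsCartan M A) (X : J → (I → ℤ) → Subgroup Y) (χ : (I → ℤ) → Y → F) (t : Y) :
    Subgroup Y := RGD.Sup (XL X) (SN cs h χ t)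

theorem Up_le {t : Y} : Up cs h X χ t ≤ RGD.Sup (XL X) (RGD.Pos cs h) :=
  RGD.Sup_mono (S := SP cs h χ t) (S' := RGD.Pos cs h) fun _ ha => ⟨ha.1.1, ha.2⟩

theorem Un_le {t : Y} : Un cs h X χ t ≤ RGD.Sup (XL X) (Neg cs h) :=
  RGD.Sup_mono (S := SN cs h χ t) (S' := Neg cs h) fun _ ha => ⟨ha.1.1, ha.2⟩

variable (H : Tow cs h p T n X) (C : Coords cs h (TL T) n (XL X) xx χ)

include H C

/-- the centraliser of `t` in `U` -/
theorem mem_Up {t : Y} (ht : t ∈ TL T) {u : Y} (hu : u ∈ RGD.Sup (XL X) (RGD.Pos cs h)) (hc : u * t = t * u) :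
    u ∈ Up cs h X χ t := by
  obtain ⟨j1, h1⟩ := H.mem_Sup.1 hu
  obtain ⟨j2, h2⟩ := H.mem_TL.1 ht
  obtain ⟨j, a1, a2⟩ := H.dir j1 j2
  have h3 : u ∈ RGD.Sup (X j) (RGD.Pos cs h) ⊓ Subgroup.centralizer {t} :=
    ⟨H.mono_Sup _ a1 h1, Subgroup.mem_centralizer_singleton_iff.2 hc⟩
  rw [centralizer_U (H.rgd j) (S := {t}) (Set.singleton_subset_iff.2 (H.monoT a2 h2))] at h3
  have h4 : RGD.Sup (fun x => X j x ⊓ Subgroup.centralizer {t}) (RGD.Pos cs h) ≤ Up cs h X χ t := by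
    refine RGD.Sup_le fun a ha => ?_
    rintro y ⟨hy, hyc⟩
    by_cases hy1 : y = 1
    · rw [hy1]; exact one_mem _
    · exact RGD.le_Sup (S := SP cs h χ t) ⟨mem_Sx_of_centralizer C ht ha.1 (le_XL j a hy) hy1 hyc, ha.2⟩ (le_XL j a hy)
  exact h4 h3

/-- the centraliser of `t` in `U⁻` -/
theorem mem_Un {t : Y} (ht : t ∈ TL T) {u : Y} (hu : u ∈ RGD.Sup (XL X) (Neg cs h)) (hc : u * t = t * u) :
    u ∈ Un cs h X χ t := by
  obtain ⟨w0, hw0⟩ := Cfsg.Agent.Nodes.Sys.exists_longest cs h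
  obtain ⟨k0, -, hk0⟩ := H.exists_rp w0⁻¹
  have hneg : ∀ x, IsRoot cs h x → x ≤ 0 → 0 ≤ rep cs h w0⁻¹ x := by
    intro x hx h0
    have h1 := hw0 (-x) hx.neg (neg_nonneg.2 h0)
    rwa [map_neg, neg_nonpos] at h1
  have hback : ∀ x, IsRoot cs h x → 0 ≤ x → rep cs h w0 x ≤ 0 := by
    intro x hx h0
    rcases (hx.act w0).pos_or_neg with h1 | h1
    · exfalso
      have h2 := hw0 _ (hx.act w0) h1
      rw [← rep_mul_apply, inv_mul_cancel, map_one, Module.End.one_apply] at h2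
      exact hx.not_pos_neg h0 h2
    · exact h1
  have ht' : k0 * t * k0⁻¹ ∈ TL T := ((Subgroup.mem_normalizer_iff.1 hk0.mem_normalizer) t).1 ht
  have h1 : k0 * u * k0⁻¹ ∈ RGD.Sup (XL X) (RGD.Pos cs h) :=
    conj_SupL H hk0 (S' := RGD.Pos cs h) (fun x hx => hx.1) (fun x hx => ⟨hx.1.act _, hneg x hx.1 hx.2⟩) hu
  have h2 : (k0 * u * k0⁻¹) * (k0 * t * k0⁻¹) = (k0 * t * k0⁻¹) * (k0 * u * k0⁻¹) := by
    calc (k0 * u * k0⁻¹) * (k0 * t * k0⁻¹) = k0 * (u * t) * k0⁻¹ := by group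
      _ = k0 * (t * u) * k0⁻¹ := by rw [hc]
      _ = _ := by group
  have h3 := mem_Up H C ht' h1 h2
  have h4 := conj_SupL H hk0.inv (S := SP cs h χ (k0 * t * k0⁻¹)) (S' := SN cs h χ t) (fun x hx => hx.1.1)
    (fun x hx => ?_) h3
  · have e : k0⁻¹ * (k0 * u * k0⁻¹) * k0⁻¹⁻¹ = u := by group
    rwa [e] at h4
  · rw [inv_inv]
    refine ⟨⟨hx.1.1.act _, ?_⟩, hback x hx.1.1 hx.2⟩
    have h5 := C.chi_rp H.nsys hk0 (hx.1.1.act w0) ht
    rw [← rep_mul_apply, inv_mul_cancel, map_one, Module.End.one_apply] at h5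
    rw [← h5]
    exact hx.1.2

omit C in
/-- the normal form of an element commuting with `t` -/
theorem conj_formL {s t : Y} (hs : s ∈ TL T) (ht : t ∈ TL T) {w : W} {u k v : Y}
    (hu : u ∈ RGD.Sup (XL X) (RGD.Pos cs h)) (hk : Rp cs H.nsys w k) (hv : v ∈ RGD.Sup (XL X) (NW cs h w))
    (hc : u * k * v * s = t * (u * k * v)) : t * u = u * t ∧ k * s = t * k ∧ s * v = v * s := by
  have key : w = w ∧ t * u * t⁻¹ = u ∧ t * k * s⁻¹ = k ∧ s * v * s⁻¹ = v := by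
    refine H.normal_form_unique ((Subgroup.mem_normalizer_iff.1 (H.T_le_normalizer (S := RGD.Pos cs h)
      (fun x hx => hx.1) ht) u).1 hu) hu ?_ hk
      ((Subgroup.mem_normalizer_iff.1 (H.T_le_normalizer (S := NW cs h w) (fun x hx => hx.1) hs) v).1 hv) hv ?_
    · have h2 := (rp_of_mem (cs := cs) (hN := H.nsys) ht).mul (hk.mul_mem_right (inv_mem hs))
      rw [one_mul] at h2
      rw [mul_assoc]; exact h2
    · have e : t * u * t⁻¹ * (t * k * s⁻¹) * (s * v * s⁻¹) = t * (u * k * v) * s⁻¹ := by group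
      rw [e, ← hc]; group
  obtain ⟨-, h1, h2, h3⟩ := key
  refine ⟨mul_inv_eq_iff_eq_mul.1 h1, ?_, mul_inv_eq_iff_eq_mul.1 h3⟩
  exact (mul_inv_eq_iff_eq_mul.1 h2).symm

/-- **The form of the elements of the centraliser.** -/
theorem form (hG : GG cs h (TL T) (XL X) = ⊤) {t : Y} (ht : t ∈ TL T) {c : Y} (hc : c * t = t * c) :
    ∃ w, ∃ u ∈ Up cs h X χ t, ∃ k, Rp cs H.nsys w k ∧ k * t = t * k ∧
      ∃ v ∈ Up cs h X χ t, k * v * k⁻¹ ∈ Un cs h X χ t ∧ c = u * k * v := by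
  obtain ⟨w, u, hu, k, hk, v, hv, rfl⟩ := H.exists_normal_form (g := c) (by rw [hG]; exact Subgroup.mem_top c)
  obtain ⟨h1, h2, h3⟩ := conj_formL H ht ht hu hk hv hc
  have hv' : v ∈ RGD.Sup (XL X) (RGD.Pos cs h) :=
    RGD.Sup_mono (S := NW cs h w) (S' := RGD.Pos cs h) (fun x hx => ⟨hx.1, hx.2.1⟩) hv
  refine ⟨w, u, mem_Up H C ht hu h1.symm, k, hk, h2, v, mem_Up H C ht hv' h3.symm, ?_, rfl⟩
  refine mem_Un H C ht (conj_SupL H hk (S' := Neg cs h) (fun x hx => hx.1) (fun x hx => ⟨hx.1.act w, hx.2.2⟩) hv) ?_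
  calc k * v * k⁻¹ * t = k * v * (k⁻¹ * t * k) * k⁻¹ := by group
    _ = k * v * t * k⁻¹ := by
        have e : k⁻¹ * t * k = t := by rw [mul_assoc, ← h2]; group
        rw [e]
    _ = k * (t * v) * k⁻¹ := by rw [h3]; group
    _ = t * (k * v * k⁻¹) := by rw [← mul_assoc, h2]; group

/-! ### the frame automorphism -/

variable {α : MulAut Y} {θ : (I → ℤ) ≃+ (I → ℤ)} (Fα : Fr cs h (TL T) (XL X) α θ)

omit H in
theorem theta_neg {t : Y} (ht : t ∈ TL T) (hpos : ∀ a ∈ Sx cs h χ t, 0 ≤ a → 0 ≤ θ a)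
    (hA : ChAdd cs h (TL T) χ) {a : I → ℤ} (ha : a ∈ Sx cs h χ t) (h0 : a ≤ 0) : θ a ≤ 0 := by
  have h1 := hpos (-a) (chi_neg C ht hA ha) (neg_nonneg.2 h0)
  rwa [map_neg, neg_nonneg] at h1

include Fα

omit H in
theorem alpha_Up {t : Y} (ht : t ∈ TL T) (hα : α t = t) (hpos : ∀ a ∈ Sx cs h χ t, 0 ≤ a → 0 ≤ θ a) {u : Y}
    (hu : u ∈ Up cs h X χ t) : α u ∈ Up cs h X χ t := by
  have h1 : Up cs h X χ t ≤ (Up cs h X χ t).comap α.toMonoidHom := by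
    refine RGD.Sup_le fun a ha => ?_
    intro y hy
    exact RGD.le_Sup (S := SP cs h χ t) ⟨(Fα.mem_Sx C ht hα a).2 ha.1, hpos a ha.1 ha.2⟩ ((Fα.map a ha.1.1 y).2 hy)
  exact h1 hu

omit H in
theorem alpha_Un {t : Y} (ht : t ∈ TL T) (hα : α t = t) (hpos : ∀ a ∈ Sx cs h χ t, 0 ≤ a → 0 ≤ θ a)
    (hA : ChAdd cs h (TL T) χ) {u : Y} (hu : u ∈ Un cs h X χ t) : α u ∈ Un cs h X χ t := by
  have h1 : Un cs h X χ t ≤ (Un cs h X χ t).comap α.toMonoidHom := by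
    refine RGD.Sup_le fun a ha => ?_
    intro y hy
    exact RGD.le_Sup (S := SN cs h χ t) ⟨(Fα.mem_Sx C ht hα a).2 ha.1, theta_neg C ht hpos hA ha.1 ha.2⟩
      ((Fα.map a ha.1.1 y).2 hy)
  exact h1 hu

/-- **The form of the elements of the centraliser fixed by `α`.** -/
theorem form_fix (hG : GG cs h (TL T) (XL X) = ⊤)
    (hsep : ∀ a, IsRoot cs h a → ∃ s ∈ TL T, ∀ u ∈ XL X a, u * s = s * u → u = 1) (hA : ChAdd cs h (TL T) χ)
    {t : Y} (ht : t ∈ TL T) (hα : α t = t) (hpos : ∀ a ∈ Sx cs h χ t, 0 ≤ a → 0 ≤ θ a)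
    {c : Y} (hc : c * t = t * c) (hαc : α c = c) :
    ∃ w, ∃ u ∈ Up cs h X χ t, α u = u ∧ ∃ k, Rp cs H.nsys w k ∧ k * t = t * k ∧ α k = k ∧
      ∃ v ∈ Up cs h X χ t, α v = v ∧ k * v * k⁻¹ ∈ Un cs h X χ t ∧ c = u * k * v := by
  obtain ⟨w, u, hu, k, hk, hkt, v, hv, hkv, rfl⟩ := form H C hG ht hc
  obtain ⟨w', hk'⟩ := Cfsg.Agent.BpExc.NChev.rp_fr H hG hsep Fα hk
  have hkv' : α k * α v * (α k)⁻¹ ∈ Un cs h X χ t := by
    rw [← map_mul, ← map_inv, ← map_mul]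
    exact alpha_Un C Fα ht hα hpos hA hkv
  obtain ⟨-, h1, h2, h3⟩ := form_unique H (Up_le (alpha_Up C Fα ht hα hpos hu)) (Up_le hu) hk' hk
    (Up_le (alpha_Up C Fα ht hα hpos hv)) (Un_le hkv') (Up_le hv) (Un_le hkv) (by
      rw [← map_mul, ← map_mul, hαc])
  exact ⟨w, u, hu, h1, k, hk, hkt, h2, v, hv, h3, hkv, rfl⟩

end Cent

end Cfsg.Agent.H28.RG
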