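import Cfsg.Agent.BpTab.Final

/-!
# S3509, exceptional groups: the centraliser of a torus element of order prime to the characteristic (helper28)

`H : Tow cs h p T n X`, `t ∈ TL T`, `χ_a(t)^m = 1` for the roots `a`.

* `prime_dvd` : the prime divisors of the order of `w ∈ PP t` divide `m`;
* `exists_pow` : `c ∈ C(t)`: `c ^ j ∈ MM t ⊔ TL T` for some `j > 0` whose prime divisors divide `m`.
-/

set_option autoImplicit false
set_option linter.unusedSectionVars false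

namespace Cfsg.Agent.H28.RG.PPrime

open CoxeterSystem Cfsg.Agent.ChevalleyStructure.CoxeterGeom Cfsg.Agent.Tits.Roots Cfsg.Agent.Tits.Core
  Cfsg.Agent.Tits.RootComb Cfsg.Agent.Tits.Exchange Cfsg.Agent.Nodes.Reps Cfsg.Agent.Nodes.BNOf
  Cfsg.Agent.Nodes.StabComb Cfsg.Agent.Nodes.Bruhat Cfsg.Agent.Nodes.OppDec Cfsg.Agent.Nodes.LeviDec
  Cfsg.Agent.Nodes.NormalForm Cfsg.Agent.Nodes.SubComb Cfsg.Agent.Nodes.Coroot Cfsg.Agent.KFacts.RgdField
  Cfsg.Agent.BpExc.TorCent Cfsg.Agent.BpExc.Tow Cfsg.Agent.BpExc.Fr Cfsg.Agent.BpExc.Pair Cfsg.Agent.BpExc.Quot Cfsg.Agent.BpExc.Good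
  Cfsg.Agent.BpExc
open scoped commutatorElement

variable {I W Y : Type*} [Fintype I] [DecidableEq I] [Group W] [Group Y] {M : CoxeterMatrix I}
  {cs : CoxeterSystem M W} {A : I → I → ℤ} {h : IsCartan M A} {p : ℕ}
  {J : Type*} [Preorder J] {T : J → Subgroup Y} {n : I → Y} {X : J → (I → ℤ) → Subgroup Y}
  {F : Type*} [Field F] {xx : (I → ℤ) → F → Y} {χ : (I → ℤ) → Y → F}

/-- **The prime divisors of the orders of the elements of `PP`.** -/
theorem prime_dvd [Finite W] {T : Subgroup Y} (hA : ChAdd cs h T χ) {x : Y} (hx : x ∈ T) {m : ℕ}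
    (hxm : ∀ a, IsRoot cs h a → χ a x ^ m = 1) {w : W} (hw : w ∈ PP cs h χ x) {q : ℕ} (hq : q.Prime)
    (hqw : q ∣ orderOf w) : q ∣ m := by
  classical
  obtain ⟨φ, h0, hadd, hφ⟩ := hA x hx
  set v := w ^ (orderOf w / q) with hv
  have hvP : v ∈ PP cs h χ x := Subgroup.pow_mem _ hw _
  have hvo : orderOf v = q := by
    rw [hv, orderOf_pow_of_dvd (Nat.div_pos (Nat.le_of_dvd (orderOf_pos w) hqw) hq.pos).ne' (Nat.div_dvd_of_dvd hqw)]
    exact Nat.div_div_self hqw (orderOf_pos w).ne'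
  have hv1 : v ≠ 1 := by
    intro e
    rw [e, orderOf_one] at hvo
    exact hq.one_lt.ne hvo
  obtain ⟨a, ha, hsum⟩ := Fix.exists_root_sum_eq_zero (cs := cs) (h := h) hv1 hq.pos
    (by rw [← hvo]; exact pow_orderOf_eq_one v)
  have hroot : ∀ i : ℕ, IsRoot cs h (rep cs h (v ^ i) a) := fun i => ha.act _
  have hφa : ∀ i : ℕ, φ (rep cs h (v ^ i) a) = φ a := fun i => by
    rw [← hφ _ (hroot i), ← hφ a ha]
    exact (mem_PP.1 (Subgroup.pow_mem _ hvP i)).1 a ha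
  have h1 : ∀ j : ℕ, φ (∑ i ∈ Finset.range j, rep cs h (v ^ i) a) = φ a ^ j := by
    intro j
    induction j with
    | zero => rw [Finset.sum_range_zero, h0, pow_zero]
    | succ j ih => rw [Finset.sum_range_succ, hadd, ih, hφa, pow_succ]
  have h2 : φ a ^ q = 1 := by rw [← h1 q, hsum, h0]
  by_contra hqm
  have h3 : φ a = 1 := by
    have h4 : φ a ^ m = 1 := by rw [← hφ a ha]; exact hxm a ha
    have h5 := pow_gcd_eq_one.2 ⟨h2, h4⟩
    rwa [(hq.coprime_iff_not_dvd.2 hqm), pow_one] at h5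
  have hS : ∀ i : ℕ, rep cs h (v ^ i) a ∈ Sx cs h χ x := fun i => ⟨hroot i, by rw [hφ _ (hroot i), hφa, h3]⟩
  have hn : ∀ i : ℕ, -rep cs h (v ^ i) a ∈ Sx cs h χ x := fun i => by
    refine ⟨(hroot i).neg, ?_⟩
    have h4 := hadd (rep cs h (v ^ i) a) (-rep cs h (v ^ i) a)
    rw [add_neg_cancel, h0, ← hφ _ (hroot i), (hS i).2, one_mul] at h4
    rw [hφ _ (hroot i).neg]
    exact h4.symm
  have hzero : ∑ i ∈ Finset.range q, ht (rep cs h (v ^ i) a) = 0 := by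
    have h4 := congrArg Nodes.Slope.htHom hsum
    rw [map_sum, map_zero] at h4
    exact h4
  have key : ∀ b : I → ℤ, b ∈ Sx cs h χ x → 0 ≤ b → ∀ i : ℕ, 0 < ht (rep cs h (v ^ i) b) := fun b hb hb0 i =>
    RGD.ht_pos (hb.1.act _) ((mem_PP.1 (Subgroup.pow_mem _ hvP i)).2 b hb hb0)
  have ha0 := hS 0
  rw [pow_zero, map_one, Module.End.one_apply] at ha0
  have hn0 := hn 0
  rw [pow_zero, map_one, Module.End.one_apply] at hn0
  rcases ha.pos_or_neg with h4 | h4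
  · have h5 : 0 < ∑ i ∈ Finset.range q, ht (rep cs h (v ^ i) a) :=
      Finset.sum_pos (fun i _ => key a ha0 h4 i) ⟨0, Finset.mem_range.2 hq.pos⟩
    omega
  · have h5 : 0 < ∑ i ∈ Finset.range q, ht (rep cs h (v ^ i) (-a)) :=
      Finset.sum_pos (fun i _ => key (-a) hn0 (neg_nonneg.2 h4) i) ⟨0, Finset.mem_range.2 hq.pos⟩
    have h6 : ∀ i, ht (rep cs h (v ^ i) (-a)) = - ht (rep cs h (v ^ i) a) := fun i => by
      rw [map_neg]; unfold ht; simp
    simp only [h6, Finset.sum_neg_distrib, hzero] at h5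
    omega

/-- **Powers of the elements of the centraliser.** -/
theorem exists_pow (H : Tow cs h p T n X) (C : Coords cs h (TL T) n (XL X) xx χ) [Finite W]
    (hA : ChAdd cs h (TL T) χ) (hG : GG cs h (TL T) (XL X) = ⊤) {t : Y} (ht : t ∈ TL T) {m : ℕ}
    (hxm : ∀ a, IsRoot cs h a → χ a t ^ m = 1) {c : Y} (hc : c * t = t * c) :
    ∃ j : ℕ, 0 < j ∧ (∀ q : ℕ, q.Prime → q ∣ j → q ∣ m) ∧ c ^ j ∈ MM cs h (XL X) χ t ⊔ TL T := by
  obtain ⟨w, hw, k, hk, hkt, hm⟩ := exists_form_PP H C hA hG ht hc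
  refine ⟨orderOf w, orderOf_pos w, fun q hq hqw => prime_dvd hA ht hxm hw hq hqw, ?_⟩
  have hkn : k ∈ Subgroup.normalizer ((MM cs h (XL X) χ t ⊔ TL T : Subgroup Y) : Set Y) :=
    mem_normalizer_iff_cj.2 (by
      rw [cj_sup, cj_MM_rp H C ht hk hkt]
      congr 1
      exact mem_normalizer_iff_cj.1 hk.mem_normalizer)
  have h1 : ∀ j : ℕ, (k ^ j)⁻¹ * c ^ j ∈ MM cs h (XL X) χ t ⊔ TL T := by
    intro j
    induction j with
    | zero => rw [pow_zero, pow_zero, inv_one, one_mul]; exact one_mem _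
    | succ j ih =>
      have h2 : (k ^ (j + 1))⁻¹ * c ^ (j + 1) = k⁻¹ * ((k ^ j)⁻¹ * c ^ j) * k * (k⁻¹ * c) := by
        rw [pow_succ, pow_succ]; group
      rw [h2]
      refine mul_mem ?_ (Subgroup.mem_sup_left hm)
      have h3 := (Subgroup.mem_normalizer_iff.1 (inv_mem hkn) ((k ^ j)⁻¹ * c ^ j)).1 ih
      rwa [inv_inv] at h3
  have h2 : ∀ j : ℕ, Rp cs H.nsys (w ^ j) (k ^ j) := by
    intro j
    induction j with
    | zero => rw [pow_zero, pow_zero]; exact rp_one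
    | succ j ih => rw [pow_succ, pow_succ]; exact ih.mul hk
  have h3 := h2 (orderOf w)
  rw [pow_orderOf_eq_one] at h3
  have h4 : c ^ orderOf w = k ^ orderOf w * ((k ^ orderOf w)⁻¹ * c ^ orderOf w) := by group
  rw [h4]
  exact mul_mem (Subgroup.mem_sup_right h3.mem_of_one) (h1 _)

end Cfsg.Agent.H28.RG.PPrime
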